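import Cfsg.Agent.H362.Eight.SpRow
import Cfsg.Agent.H688.Eight.Sp62

/-!
# S4899, row `PSp_{2m}(q)`, `m ≥ 3` (helper362)
-/

set_option autoImplicit false

open Cfsg

namespace Cfsg.Agent.H362.Eight

open Cfsg.Agent.H664.Eight

universe u

/-- **row `PSp_{2m}(q)`, `m ≥ 3`** -/
theorem eight_sp (K : Type u) [Field K] [Finite K] {m : ℕ} (hm : 3 ≤ m) : Eight (PSp m K) := by
  by_cases h : m = 3 ∧ Nat.card K = 2
  · obtain ⟨rfl, h2⟩ := h
    let _ := Fintype.ofFinite K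
    exact Cfsg.Agent.H688.Eight.eight_sp62 (F := K) (by rw [← Nat.card_eq_fintype_card, h2])
  · exact eight_sp' K hm h

end Cfsg.Agent.H362.Eight
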